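import Cfsg.Agent.Blocks.KleinFour.Isometry.Column
import Cfsg.Agent.Blocks.KleinFour.Rank

/-!
# The singular columns of a block with a Klein four defect group

They are spanned by `4 - l` orthogonal sign vectors, orthogonal to the regular columns, whose
scalar products with the singular columns are divisible by four and by the centralizer orders.
-/

set_option autoImplicit false
set_option linter.style.haveILetI false
open Cfsg CfsgLib
open CfsgLib.Blocks CfsgLib.Blocks.HeightZero CfsgLib.Blocks.Contrib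
open scoped MonoidAlgebra ComplexConjugate

namespace CfsgLib.Blocks.KleinFour

universe u

variable {G : Type u} [Group G] [Fintype G] {M : Ideal AlgInt} {B : Set (IrrCharacter G)}

/-- The scalar product of a sign vector with a column of the block. -/
noncomputable def colPair (B : Set (IrrCharacter G)) (v : IrrCharacter G → ℤ) (g : G) : ℂ :=
  ∑ ψ ∈ B.toFinite.toFinset, (v ψ : ℂ) * (ψ : G → ℂ) g

theorem colPair_conj (B : Set (IrrCharacter G)) (v : IrrCharacter G → ℤ) (g a : G) :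
    colPair B v (a * g * a⁻¹) = colPair B v g :=
  Finset.sum_congr rfl fun ψ _ => by rw [irrCharacter_conj]

theorem natCard_centralizer_section {x : G} {H : Subgroup G}
    (hH : H = Subgroup.centralizer ({x} : Set G)) (hu : ∃ e : ℕ, orderOf x = 2 ^ e) {s : H}
    (hs : IsPRegular 2 s) :
    Nat.card (Subgroup.centralizer ({x * (s : G)} : Set G)) =
      Nat.card (Subgroup.centralizer ({s} : Set H)) := by
  subst hH
  obtain ⟨k, hk⟩ := exists_pow_eq_isPPart (G := G) Nat.prime_two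
  have hkx := hk _ _ (isPPart_mul_of_mem rfl hu hs)
  have hsx : (s : G) * x = x * s := Subgroup.mem_centralizer_singleton_iff.1 s.2
  have e : Subgroup.centralizer ({x * (s : G)} : Set G) =
      (Subgroup.centralizer ({s} : Set (Subgroup.centralizer ({x} : Set G)))).map
        (Subgroup.centralizer ({x} : Set G)).subtype := by
    ext g
    rw [Subgroup.mem_centralizer_singleton_iff, Subgroup.mem_map]
    constructor
    · intro hg
      have hgx : g * x = x * g := by
        rw [← hkx]; exact ((show Commute g (x * (s : G)) from hg).pow_right k).eq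
      have hgs : g * (s : G) = s * g := mul_left_cancel (a := x) (by
        rw [← mul_assoc, ← hgx, mul_assoc, hg, mul_assoc])
      exact ⟨⟨g, Subgroup.mem_centralizer_singleton_iff.2 hgx⟩,
        Subgroup.mem_centralizer_singleton_iff.2 (Subtype.ext hgs), rfl⟩
    · rintro ⟨y, hy, rfl⟩
      have h1 : (y : G) * x = x * y := Subgroup.mem_centralizer_singleton_iff.1 y.2
      have h2 : (y : G) * (s : G) = s * y :=
        congrArg Subtype.val (Subgroup.mem_centralizer_singleton_iff.1 hy)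
      show (y : G) * (x * s) = x * s * y
      rw [← mul_assoc, h1, mul_assoc, h2, mul_assoc]
  rw [e, Subgroup.card_map_of_injective
    (Subgroup.centralizer ({x} : Set G)).subtype_injective]

theorem natCard_centralizer_conj (g a : G) :
    Nat.card (Subgroup.centralizer ({a * g * a⁻¹} : Set G)) =
      Nat.card (Subgroup.centralizer ({g} : Set G)) := by
  refine Nat.card_congr ((MulAut.conj a⁻¹).toEquiv.subtypeEquiv fun y => ?_)
  show y ∈ Subgroup.centralizer ({a * g * a⁻¹} : Set G) ↔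
    a⁻¹ * y * a⁻¹⁻¹ ∈ Subgroup.centralizer ({g} : Set G)
  simp only [Subgroup.mem_centralizer_singleton_iff]
  constructor
  · intro h
    calc a⁻¹ * y * a⁻¹⁻¹ * g = a⁻¹ * (y * (a * g * a⁻¹)) * a := by group
      _ = a⁻¹ * (a * g * a⁻¹ * y) * a := by rw [h]
      _ = _ := by group
  · intro h
    calc y * (a * g * a⁻¹) = a * (a⁻¹ * y * a⁻¹⁻¹ * g) * a⁻¹ := by group
      _ = a * (g * (a⁻¹ * y * a⁻¹⁻¹)) * a⁻¹ := by rw [h]
      _ = _ := by group

/-- The columns of the block. -/
theorem exists_columns [M.IsMaximal] [CharP (kres M) 2] [Fact (Nat.Prime 2)]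
    (hM : IsPModular 2 M) (hB : IsPBlock M B) {P : Subgroup G} (hPD : IsDefectGroup 2 M B P)
    (hV : IsKleinFour P) {gm : MonoidAlgebra (kres M) G}
    (hmax : IsMaxPairIdem 2 ⊤ (topEl M B) P gm) :
    ∃ v : Fin (4 - blockRank 2 B) → IrrCharacter G → ℤ,
      (∀ i, ∀ χ ∈ B, v i χ = 1 ∨ v i χ = -1) ∧
      (∀ i j, i ≠ j → ∑ χ ∈ B.toFinite.toFinset, v i χ * v j χ = 0) ∧
      (∀ g, IsPRegular 2 g → ∀ i, colPair B (v i) g = 0) ∧
      (∀ g, ¬ IsPRegular 2 g → ∀ χ ∈ B,
        (χ : G → ℂ) g = 4⁻¹ * ∑ i, (v i χ : ℂ) * colPair B (v i) g) ∧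
      (∀ g, ¬ IsPRegular 2 g → ∀ i,
        MemLocalRing M (colPair B (v i) g / (Nat.card (Subgroup.centralizer ({g} : Set G)) : ℂ)) ∧
        MemLocalRing M (colPair B (v i) g / 4)) := by
  classical
  obtain ⟨hk, -⟩ := natCard_and_rank hM hB hPD hV hmax
  have hdB := blockDefect_of_klein hM hB hPD hV
  obtain ⟨X, hX, hXrep, hXc⟩ := exists_reps (G := G) 2
  have h1 : ∃ k : ℕ, orderOf (1 : G) = 2 ^ k := ⟨0, by simp⟩
  have hsub : ∀ y ∈ X, y ≠ 1 → ∀ b, IsInducedBlock M (Subgroup.centralizer ({y} : Set G)) b B →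
      blockRank 2 b = 1 ∧ orderOf y = 2 ∧ blockDefect 2 b = 2 := by
    intro y hy hy1 b hb
    obtain ⟨a, D, -, hDV, hyD, hDle, hbD⟩ := exists_defect_of_subsection hM hB hmax hV (hX y hy) hb
    have hV' := isKleinFour_subgroupOf hDV hDle
    refine ⟨blockRank_eq_one_of_central hM hb.1 hbD hV'
      (x := (⟨y, hDle hyD⟩ : Subgroup.centralizer ({y} : Set G))) hyD
      (fun h => hy1 (congrArg Subtype.val h)) ?_,
      orderOf_of_klein hDV hyD hy1, blockDefect_of_klein hM hb.1 hbD hV'⟩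
    exact Subgroup.mem_center_iff.2 fun h =>
      Subtype.ext (Subgroup.mem_centralizer_singleton_iff.1 h.2)
  let SecIdx := Σ x : {x : G // x ∈ X ∧ x ∉ ({1} : Finset G)},
    {b : Set (IrrCharacter (Subgroup.centralizer ({(x : G)} : Set G))) //
      IsInducedBlock M (Subgroup.centralizer ({(x : G)} : Set G)) b B}
  haveI : ∀ x : G, Finite (IrrCharacter (Subgroup.centralizer ({x} : Set G))) := fun x =>
    finite_irrCharacter
  have hcount : Nat.card SecIdx = 4 - blockRank 2 B := by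
    have h := natCard_eq_add hM hB {1}
      (fun z hz => by rw [Finset.mem_singleton.1 hz]; exact ⟨one_mem _, h1⟩) X hX hXrep
      (fun z hz => by rw [Finset.mem_singleton.1 hz]; exact hXc 1 (one_mem _) h1)
      fun y hy hyZ b hb => (hsub y hy (fun e => hyZ (Finset.mem_singleton.2 e)) b hb).1
    rw [hk, Finset.card_singleton, one_mul] at h
    exact Nat.eq_sub_of_add_eq ((add_comm _ _).trans h.symm)
  let e : Fin (4 - blockRank 2 B) ≃ SecIdx := (Finite.equivFinOfCardEq hcount).symm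
  have hcol := fun s : SecIdx => exists_column hM
    (hsub s.1 s.1.2.1 (fun h => s.1.2.2 (Finset.mem_singleton.2 h)) s.2.1 s.2.2).2.1 hB hdB hk
    (H := Subgroup.centralizer ({(s.1 : G)} : Set G)) rfl s.2.2
    (hsub s.1 s.1.2.1 (fun h => s.1.2.2 (Finset.mem_singleton.2 h)) s.2.1 s.2.2).2.2
    (hsub s.1 s.1.2.1 (fun h => s.1.2.2 (Finset.mem_singleton.2 h)) s.2.1 s.2.2).1
  choose v σ hpm hsect hne hpair hother hblk hloc hdiv using hcol
  refine ⟨fun i => v (e i), fun i => hpm (e i), ?_, ?_, ?_, ?_⟩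
  · intro i j hij
    have hst : e i ≠ e j := fun h => hij (e.injective h)
    set s := e i
    set t := e j
    obtain ⟨r, hr, hσ⟩ := hne t
    suffices h : ((∑ χ ∈ B.toFinite.toFinset, v s χ * v t χ : ℤ) : ℂ) * σ t r = 0 by
      exact_mod_cast (mul_eq_zero.1 h).resolve_right hσ
    push_cast
    rw [Finset.sum_mul]
    have e1 : ∀ χ ∈ B.toFinite.toFinset, (v s χ : ℂ) * (v t χ : ℂ) * σ t r =
        (v s χ : ℂ) * sectPart t.2.1 (t.1 : G) χ r := fun χ hχ => by
      rw [hsect t χ ((Set.Finite.mem_toFinset _).1 hχ) r hr, mul_assoc]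
    rw [Finset.sum_congr rfl e1]
    obtain ⟨⟨x, hx⟩, b, hb⟩ := s
    obtain ⟨⟨y, hy⟩, c, hc⟩ := t
    by_cases hxy : x = y
    · subst hxy
      refine hblk ⟨⟨x, hx⟩, b, hb⟩ hc.1 (fun h => hst ?_) r hr
      subst h
      rfl
    · have hu : ∃ k : ℕ, orderOf y = 2 ^ k := hX y hy.1
      rw [Finset.sum_congr rfl fun χ _ => by
        rw [sectPart_eq_sum hM rfl hc.1 χ hr, Finset.mul_sum], Finset.sum_comm]
      refine Finset.sum_eq_zero fun w hw => ?_
      rw [Finset.sum_congr rfl fun χ _ => mul_left_comm _ _ _, ← Finset.mul_sum,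
        hother ⟨⟨x, hx⟩, b, hb⟩ _ y (isPPart_mul_of_mem rfl hu (mem_regSet.1 hw)), mul_zero]
      intro h
      exact hxy ((hXrep y hu).unique ⟨hy.1, IsConj.refl y⟩ ⟨hx.1, h⟩).symm
  · intro g hg i
    refine hother (e i) g 1 ⟨g, one_mul g, Commute.one_left g, h1, hg⟩ fun h => ?_
    exact (e i).1.2.2 (Finset.mem_singleton.2 (by simpa [eq_comm] using h))
  all_goals
    intro g hg
    obtain ⟨w, hw⟩ := exists_isPPart Nat.prime_two g
    obtain ⟨x, ⟨hxX, hwx⟩, -⟩ := hXrep w hw.choose_spec.2.2.1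
    obtain ⟨a, ha⟩ := isConj_iff.1 hwx
    obtain ⟨r, hr, hcr, hpr, hrr⟩ := isPPart_conj hw a
    rw [ha] at hr hcr
    have hx1 : x ≠ 1 := by
      intro h
      subst h
      rw [one_mul] at hr
      subst hr
      exact hg ((isPRegular_conj_iff a g).1 hrr)
    have hxZ : x ∉ ({1} : Finset G) := fun h => hx1 (Finset.mem_singleton.1 h)
    let rH : Subgroup.centralizer ({x} : Set G) :=
      ⟨r, Subgroup.mem_centralizer_singleton_iff.2 hcr.eq.symm⟩
    have hrH : IsPRegular 2 rH := by rw [IsPRegular, Subgroup.orderOf_mk]; exact hrr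
    have hgr : g = a⁻¹ * (x * (rH : G)) * a⁻¹⁻¹ := by
      show g = a⁻¹ * (x * r) * a⁻¹⁻¹
      rw [hr]
      group
    have hoff : ∀ s : SecIdx, (s.1 : G) ≠ x → colPair B (v s) g = 0 := fun s hs => by
      rw [hgr, colPair_conj]
      exact hother s _ x (isPPart_mul_of_mem rfl (hX x hxX) hrH) fun h =>
        hs ((hXrep x (hX x hxX)).unique ⟨s.1.2.1, h⟩ ⟨hxX, IsConj.refl x⟩)
    have hon : ∀ c, colPair B (v ⟨⟨x, hxX, hxZ⟩, c⟩) g = 4 * σ ⟨⟨x, hxX, hxZ⟩, c⟩ rH := fun c => by
      rw [hgr, colPair_conj]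
      exact hpair ⟨⟨x, hxX, hxZ⟩, c⟩ rH hrH
  · intro χ hχ
    haveI : ∀ y : {x : G // x ∈ X ∧ x ∉ ({1} : Finset G)}, Fintype
        {b : Set (IrrCharacter (Subgroup.centralizer ({(y : G)} : Set G))) //
          IsInducedBlock M (Subgroup.centralizer ({(y : G)} : Set G)) b B} := fun y =>
      Fintype.ofFinite _
    rw [Equiv.sum_comp e fun s => (v s χ : ℂ) * colPair B (v s) g, Fintype.sum_sigma,
      Fintype.sum_eq_single (⟨x, hxX, hxZ⟩ : {x : G // x ∈ X ∧ x ∉ ({1} : Finset G)})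
        (fun y hy => Finset.sum_eq_zero fun c _ => by
          rw [hoff ⟨y, c⟩ (fun h => hy (Subtype.ext h)), mul_zero]),
      Finset.mul_sum]
    conv_lhs => rw [hgr, irrCharacter_conj, sum_sectPart_eq hM rfl (hX x hxX) hB hχ hrH]
    refine Finset.sum_congr (by ext c; simp) fun c _ => ?_
    rw [hon c, hsect ⟨⟨x, hxX, hxZ⟩, c⟩ χ hχ rH hrH]
    ring
  · intro i
    by_cases hix : ((e i).1 : G) = x
    swap
    · rw [hoff _ hix, zero_div, zero_div]
      exact ⟨(localRing M).zero_mem, (localRing M).zero_mem⟩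
    obtain ⟨⟨⟨y, hy⟩, c⟩, hec⟩ : ∃ s, e i = s := ⟨_, rfl⟩
    dsimp only
    rw [hec] at hix ⊢
    change y = x at hix
    subst hix
    rw [hon c, mul_div_cancel_left₀ _ (show (4 : ℂ) ≠ 0 by norm_num)]
    refine ⟨?_, hloc ⟨⟨y, hy⟩, c⟩ rH hrH⟩
    rw [hgr, natCard_centralizer_conj, natCard_centralizer_section rfl (hX y hxX) hrH]
    exact hdiv ⟨⟨y, hy⟩, c⟩ rH hrH

end CfsgLib.Blocks.KleinFour
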