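import Cfsg.Agent.Blocks.DefectOne.Two
import Cfsg.Agent.Blocks.Subsection.Major
import Cfsg.Agent.Blocks.Orth.Subsection

/-!
# Reproducing property of the contributions of a subsection

Summing the contributions against the members of the block reproduces the block part on the section
and kills every other section.
-/

set_option autoImplicit false
set_option linter.style.haveILetI false
open Cfsg CfsgLib
open CfsgLib.Blocks CfsgLib.Blocks.HeightZero CfsgLib.Blocks.Contrib
open scoped ComplexConjugate

namespace CfsgLib.Blocks.KleinFour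

universe u

variable {G : Type u} [Group G] [Fintype G] {p : ℕ} {M : Ideal AlgInt} {u : G}
  {H : Subgroup G} [Fintype H] {b : Set (IrrCharacter H)} {B : Set (IrrCharacter G)}

theorem contrib_eq_zero_of_not_mem (hM : IsPModular p M)
    (hH : H = Subgroup.centralizer ({u} : Set G)) (hu : ∃ e : ℕ, orderOf u = p ^ e)
    (hind : IsInducedBlock M H b B) (χ : IrrCharacter G) {ψ : IrrCharacter G} (hψ : ψ ∉ B) :
    contrib p b u χ ψ = 0 := by
  have := isMaximal_of_isPModular hM
  have hne : ¬ IsInducedBlock M H b (blockOf M (ψ : G → ℂ)) := fun h => hψ (by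
    rw [isInducedBlock_unique hM hind h]
    exact self_mem_blockOf ψ)
  rw [contrib, Finset.sum_eq_zero fun s hs => ?_, mul_zero]
  rw [sectPart, sectPart, blockPart_section_eq_zero hM hH hu hind.1 ⟨ψ, rfl⟩ hne
    (self_mem_blockOf ψ) (mem_regSet.1 hs), map_zero, mul_zero]

theorem sum_contrib_mul_eq (hM : IsPModular p M)
    (hH : H = Subgroup.centralizer ({u} : Set G)) (hu : ∃ e : ℕ, orderOf u = p ^ e)
    (hind : IsInducedBlock M H b B) (χ : IrrCharacter G) (g : G) :
    ∑ ψ ∈ B.toFinite.toFinset, contrib p b u χ ψ * (ψ : G → ℂ) g =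
      (p : ℂ) ^ blockDefect p b / (Nat.card H : ℂ) * ∑ t ∈ regSet p H, sectPart b u χ t *
        ∑ ψ : IrrCharacter G, (ψ : G → ℂ) g * conj ((ψ : G → ℂ) (u * (t : G))) := by
  rw [Finset.sum_subset (Finset.subset_univ _) fun ψ _ hψ => by
    rw [contrib_eq_zero_of_not_mem hM hH hu hind χ
      (fun h => hψ ((Set.Finite.mem_toFinset _).2 h)), zero_mul]]
  rw [Finset.sum_congr rfl fun (ψ : IrrCharacter G) _ => show contrib p b u χ ψ * (ψ : G → ℂ) g =
      (p : ℂ) ^ blockDefect p b / (Nat.card H : ℂ) *
        ∑ t ∈ regSet p H, sectPart b u χ t * ((ψ : G → ℂ) g * conj ((ψ : G → ℂ) (u * (t : G)))) by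
    rw [contrib, sectPart, sectPart, sum_blockPart_mul_conj hM hind.1
      (isClassFunction_translate hH χ) (isClassFunction_translate hH ψ), mul_assoc, Finset.sum_mul]
    congr 1
    exact Finset.sum_congr rfl fun t _ => by ring]
  rw [← Finset.mul_sum, Finset.sum_comm]
  congr 1
  exact Finset.sum_congr rfl fun t _ => (Finset.mul_sum _ _ _).symm

/-- On its own section the sum gives back the block part. -/
theorem sum_contrib_mul_section (hM : IsPModular p M)
    (hH : H = Subgroup.centralizer ({u} : Set G)) (hu : ∃ e : ℕ, orderOf u = p ^ e)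
    (hind : IsInducedBlock M H b B) (χ : IrrCharacter G) {s : H} (hs : IsPRegular p s) :
    ∑ ψ ∈ B.toFinite.toFinset, contrib p b u χ ψ * (ψ : G → ℂ) (u * (s : G)) =
      (p : ℂ) ^ blockDefect p b * sectPart b u χ s := by
  classical
  have hvc : IsClassFunction H (sectPart b u χ) := isClassFunction_blockPart b _
  rw [sum_contrib_mul_eq hM hH hu hind χ]
  rw [Finset.sum_congr rfl fun t ht => by
    rw [sum_irr_section_mul_conj hM.1 hH hu (mem_regSet.1 ht) hs, Finset.mul_sum]]
  rw [Finset.sum_comm, Finset.sum_congr rfl fun a _ => by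
    simp only [mul_ite, mul_one, mul_zero]
    rw [Finset.sum_ite_eq, if_pos (mem_regSet.2 ((isPRegular_conj_iff a s).2 hs)), hvc s a]]
  rw [Finset.sum_const, Finset.card_univ, nsmul_eq_mul, ← Nat.card_eq_fintype_card, ← mul_assoc,
    div_mul_cancel₀ _ (Chars.natCard_ne_zero (G := H))]

/-- Off its section the sum vanishes. -/
theorem sum_contrib_mul_other (hM : IsPModular p M)
    (hH : H = Subgroup.centralizer ({u} : Set G)) (hu : ∃ e : ℕ, orderOf u = p ^ e)
    (hind : IsInducedBlock M H b B) (χ : IrrCharacter G) {g v : G} (hv : IsPPart p g v)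
    (hvu : ¬ IsConj v u) :
    ∑ ψ ∈ B.toFinite.toFinset, contrib p b u χ ψ * (ψ : G → ℂ) g = 0 := by
  classical
  rw [sum_contrib_mul_eq hM hH hu hind χ, Finset.sum_eq_zero fun t ht => ?_, mul_zero]
  rw [Chars.sum_irr_mul_conj, if_neg, mul_zero]
  intro hc
  obtain ⟨a, ha⟩ := isConj_iff.1 hc
  refine hvu (isConj_iff.2 ⟨a, ?_⟩)
  have h1 := isPPart_conj hv a
  rw [ha] at h1
  exact isPPart_unique hM.1 h1 (isPPart_mul_of_mem hH hu (mem_regSet.1 ht))

/-- The block parts of the blocks inducing `B` add up to the character on the section. -/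
theorem sum_sectPart_eq (hM : IsPModular p M)
    (hH : H = Subgroup.centralizer ({u} : Set G)) (hu : ∃ e : ℕ, orderOf u = p ^ e)
    (hB : IsPBlock M B) [Fintype {b : Set (IrrCharacter H) // IsInducedBlock M H b B}]
    {χ : IrrCharacter G} (hχ : χ ∈ B) {s : H} (hs : IsPRegular p s) :
    (χ : G → ℂ) (u * (s : G)) =
      ∑ b : {b : Set (IrrCharacter H) // IsInducedBlock M H b B}, sectPart b.1 u χ s := by
  classical
  have := isMaximal_of_isPModular hM
  set blocks : Finset (Set (IrrCharacter H)) :=
    Finset.univ.image fun ψ : IrrCharacter H => blockOf M (ψ : H → ℂ)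
  have hblocks : ∀ b ∈ blocks, IsPBlock M b := by
    intro b hb
    obtain ⟨ψ, _, rfl⟩ := Finset.mem_image.1 hb
    exact ⟨ψ, rfl⟩
  have hmem : ∀ b, IsPBlock M b → b ∈ blocks := fun b ⟨ψ, hψ⟩ =>
    Finset.mem_image.2 ⟨ψ, Finset.mem_univ _, hψ.symm⟩
  have hφ := isClassFunction_translate hH χ
  have hsub := Finset.sum_subtype (F := inferInstanceAs (Fintype {b : Set (IrrCharacter H) // IsInducedBlock M H b B})) (blocks.filter fun b => IsInducedBlock M H b B)
    (p := fun b => IsInducedBlock M H b B)
    (fun b => ⟨fun h => (Finset.mem_filter.1 h).2,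
      fun h => Finset.mem_filter.2 ⟨hmem b h.1, h⟩⟩) (fun b => sectPart b u χ s)
  rw [← hsub, Finset.sum_filter_of_ne fun b hb hne => ?_]
  · rw [Chars.eq_sum_classInner_mul hφ s,
      ← Finset.sum_fiberwise_of_maps_to (g := fun ψ : IrrCharacter H => blockOf M (ψ : H → ℂ))
        (t := blocks) (fun ψ _ => Finset.mem_image_of_mem _ (Finset.mem_univ ψ))]
    refine Finset.sum_congr rfl fun b hb => ?_
    rw [sectPart, blockPart_apply_eq, Finset.sum_apply]
    refine Finset.sum_congr ?_ fun ψ _ => rfl
    ext ψ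
    simp only [Finset.mem_filter, Finset.mem_univ, true_and, Set.Finite.mem_toFinset]
    exact ⟨fun h => h ▸ self_mem_blockOf ψ, fun h => (eq_blockOf_of_mem (hblocks b hb) h).symm⟩
  · by_contra h
    exact hne (blockPart_section_eq_zero hM hH hu (hblocks b hb) hB h hχ hs)

/-- The block part at a regular element is a combination of the values on the section. -/
theorem sectPart_eq_sum (hM : IsPModular p M)
    (hH : H = Subgroup.centralizer ({u} : Set G)) (hb : IsPBlock M b) (χ : IrrCharacter G)
    {s : H} (hs : IsPRegular p s) :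
    sectPart b u χ s = ∑ t ∈ regSet p H, blockCoeff b (t * s⁻¹) * (χ : G → ℂ) (u * (t : G)) :=
  blockPart_eq_sum_regSet hM hb (isClassFunction_translate hH χ) hs

/-- Contributions against the block parts of a second block at the same element. -/
theorem sum_contrib_mul_sectPart (hM : IsPModular p M)
    (hH : H = Subgroup.centralizer ({u} : Set G)) (hu : ∃ e : ℕ, orderOf u = p ^ e)
    (hind : IsInducedBlock M H b B) (χ : IrrCharacter G) {b' : Set (IrrCharacter H)}
    (hb' : IsPBlock M b') {s : H} (hs : IsPRegular p s) :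
    ∑ ψ ∈ B.toFinite.toFinset, contrib p b u χ ψ * sectPart b' u ψ s =
      (p : ℂ) ^ blockDefect p b * blockPart b' (sectPart b u χ) s := by
  rw [blockPart_eq_sum_regSet hM hb' (φ := sectPart b u χ) (isClassFunction_blockPart b _) hs]
  rw [Finset.sum_congr rfl fun ψ _ => by rw [sectPart_eq_sum hM hH hb' ψ hs, Finset.mul_sum],
    Finset.sum_comm, Finset.mul_sum]
  refine Finset.sum_congr rfl fun t ht => ?_
  rw [Finset.sum_congr rfl fun ψ _ => show contrib p b u χ ψ *
      (blockCoeff b' (t * s⁻¹) * (ψ : G → ℂ) (u * (t : G))) =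
      blockCoeff b' (t * s⁻¹) * (contrib p b u χ ψ * (ψ : G → ℂ) (u * (t : G))) by ring,
    ← Finset.mul_sum, sum_contrib_mul_section hM hH hu hind χ (mem_regSet.1 ht)]
  ring

theorem blockPart_blockPart_of_ne {K : Type u} [Group K] [Fintype K] [M.IsMaximal]
    {b b' : Set (IrrCharacter K)} (hb : IsPBlock M b) (hb' : IsPBlock M b') (hne : b ≠ b')
    (φ : K → ℂ) : blockPart b' (blockPart b φ) = 0 := by
  classical
  rw [blockPart_apply_eq b' (blockPart b φ)]
  refine Finset.sum_eq_zero fun ψ hψ => ?_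
  rw [blockPart_apply_eq, Chars.classInner_sum_left,
    Finset.sum_eq_zero fun η hη => ?_, zero_smul]
  rw [Chars.classInner_smul_left, Chars.classInner_irr, if_neg, mul_zero]
  rintro rfl
  exact hne ((eq_blockOf_of_mem hb ((Set.Finite.mem_toFinset _).1 hη)).trans
    (eq_blockOf_of_mem hb' ((Set.Finite.mem_toFinset _).1 hψ)).symm)

end CfsgLib.Blocks.KleinFour
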