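import Cfsg.Agent.Blocks.KleinFour.Isometry.Divisible
import Cfsg.Agent.Blocks.KleinFour.Isometry.Reproduce

/-!
# The sign column of a rank one subsection in a 2-block with four characters
-/

set_option autoImplicit false
set_option linter.style.haveILetI false
open Cfsg CfsgLib Polynomial
open CfsgLib.Blocks CfsgLib.Blocks.HeightZero CfsgLib.Blocks.Contrib
open scoped ComplexConjugate

namespace CfsgLib.Blocks.KleinFour

universe u

variable {G : Type u} [Group G] [Fintype G] {M : Ideal AlgInt} {x : G} {B : Set (IrrCharacter G)}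
  {H : Subgroup G} [Fintype H] {b : Set (IrrCharacter H)}

/-- The contributions of the subsection are the products of two signs. -/
theorem exists_signs (hM : IsPModular 2 M) (hx : orderOf x = 2) (hB : IsPBlock M B)
    (hdB : blockDefect 2 B = 2) (hk : Nat.card B = 4)
    (hH : H = Subgroup.centralizer ({x} : Set G)) (hind : IsInducedBlock M H b B)
    (hdb : blockDefect 2 b = 2) (hl : blockRank 2 b = 1) :
    ∃ v : IrrCharacter G → ℤ, (∀ χ ∈ B, v χ = 1 ∨ v χ = -1) ∧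
      ∀ χ ∈ B, ∀ ψ ∈ B, contrib 2 b x χ ψ = (v χ : ℂ) * (v ψ : ℂ) := by
  classical
  have := isMaximal_of_isPModular hM
  haveI : Fact (Nat.Prime 2) := ⟨Nat.prime_two⟩
  have hu : ∃ e : ℕ, orderOf x = 2 ^ e := ⟨1, by rw [hx, pow_one]⟩
  have h0 : ∀ χ ∈ B, blockHeight 2 B (χ : G → ℂ) = 0 := by
    intro χ hχ
    by_contra h
    have := height_add_two_le_blockDefect hM hB hχ h
    omega
  set T := B.toFinite.toFinset with hT
  have hTm : ∀ χ, χ ∈ T ↔ χ ∈ B := fun χ => Set.Finite.mem_toFinset _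
  have hP : ∀ χ ψ : IrrCharacter G, ∃ m : ℤ, contrib 2 b x χ ψ = (m : ℂ) ∧
      (χ ∈ B → ψ ∈ B → Odd m) := by
    intro χ ψ
    obtain ⟨P, hP⟩ := exists_poly (p := 2) hM hind.1 hH (N := 2) (by rw [← hx, pow_orderOf_eq_one])
      (IsPrimitiveRoot.neg_one 0 (by norm_num)) χ ψ
    have e1 : contrib 2 b x χ ψ = ((P.eval (-1) : ℤ) : ℂ) := by
      have := hP 1
      rw [pow_one, pow_one, show (-1 : ℂ) = algebraMap ℤ ℂ (-1) by simp,
        aeval_algebraMap_apply_eq_algebraMap_eval] at this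
      simpa using this
    refine ⟨_, e1, fun hχ hψ => ?_⟩
    have e0 : contrib 2 b (1 : G) χ ψ = ((P.eval 1 : ℤ) : ℂ) := by
      have := hP 0
      rw [pow_zero, pow_zero, show (1 : ℂ) = algebraMap ℤ ℂ 1 by simp,
        aeval_algebraMap_apply_eq_algebraMap_eval] at this
      simpa using this
    have hu1 : ¬ (2 : ℤ) ∣ P.eval 1 := by
      intro hd
      refine not_memLocalIdeal_contrib_one hM hind hχ (h0 χ hχ) hψ (h0 ψ hψ) ?_
      rw [e0]
      have : MemLocalIdeal M (((P.eval 1 : ℤ) : AlgInt) : ℂ) :=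
        memLocalIdeal_coe_iff.2 ((intCast_mem_iff hM _).2 (by simpa using hd))
      simpa using this
    have hsub : ((1 : ℤ) - -1) ∣ P.eval 1 - P.eval (-1) := sub_dvd_eval_sub _ _ _
    norm_num at hsub
    rw [Int.odd_iff]
    omega
  choose m hm hodd using hP
  have hsymm : ∀ χ ψ, m χ ψ = m ψ χ := by
    intro χ ψ
    have h := contrib_conj (p := 2) (b := b) x χ ψ
    rw [hm, hm, map_intCast] at h
    exact_mod_cast h
  have hrow : ∀ χ, ∑ ψ ∈ T, m χ ψ ^ 2 = 4 * m χ χ := by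
    intro χ
    have h := sum_contrib_mul_conj hM hH hu hind χ
    simp only [hm, map_intCast, hdb] at h
    rw [← Int.cast_inj (α := ℂ)]
    push_cast at h ⊢
    norm_num at h
    simpa [hT, pow_two] using h
  have hT4 : T.card = 4 := by rw [hT, ← Nat.card_eq_card_finite_toFinset]; exact hk
  have htr : ∑ χ ∈ T, m χ χ = 4 := by
    have h := sum_contrib_self hM hH hu hind
    simp only [hm, hdb, hl] at h
    norm_num at h
    exact_mod_cast (by simpa [hT] using h : ((∑ χ ∈ T, m χ χ : ℤ) : ℂ) = ((4 : ℤ) : ℂ))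
  have hsq : ∀ χ ∈ T, ∀ ψ ∈ T, 1 ≤ m χ ψ ^ 2 := by
    intro χ hχ ψ hψ
    have h := hodd χ ψ ((hTm _).1 hχ) ((hTm _).1 hψ)
    have : m χ ψ ≠ 0 := fun h0 => by simp [h0] at h
    have := sq_pos_of_ne_zero this
    omega
  have hdiag : ∀ χ ∈ T, m χ χ = 1 := by
    intro χ hχ
    have hpos : ∀ χ ∈ T, 0 ≤ m χ χ - 1 := fun χ hχ => by
      have h1 := Finset.single_le_sum (f := fun ψ => m χ ψ ^ 2) (fun ψ _ => sq_nonneg _) hχ
      have h2 := hsq χ hχ χ hχ
      simp only [hrow] at h1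
      omega
    have h := (Finset.sum_eq_zero_iff_of_nonneg hpos).1 (by
      rw [Finset.sum_sub_distrib, htr, Finset.sum_const, hT4]; norm_num) χ hχ
    omega
  have hone : ∀ χ ∈ T, ∀ ψ ∈ T, m χ ψ = 1 ∨ m χ ψ = -1 := by
    intro χ hχ ψ hψ
    have h := (Finset.sum_eq_zero_iff_of_nonneg
      (f := fun ψ => m χ ψ ^ 2 - 1) fun ψ hψ => sub_nonneg.2 (hsq χ hχ ψ hψ)).1 (by
      rw [Finset.sum_sub_distrib, hrow, hdiag χ hχ, Finset.sum_const, hT4]; norm_num) ψ hψ
    rcases mul_eq_zero.1 (show (m χ ψ - 1) * (m χ ψ + 1) = 0 by rw [← h]; ring) with e | e <;> omega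
  have hproj : ∀ χ φ, ∑ ψ ∈ T, m χ ψ * m ψ φ = 4 * m χ φ := by
    intro χ φ
    have h : ∑ ψ ∈ B.toFinite.toFinset, contrib 2 b x χ ψ * contrib 2 b x ψ φ =
        (2 : ℕ) ^ blockDefect 2 b * contrib 2 b x χ φ := by
      have hc : ∀ a, contrib 2 b x a φ = ((2 : ℕ) : ℂ) ^ blockDefect 2 b / (Nat.card H : ℂ) *
          ∑ s ∈ regSet 2 H, sectPart b x a s * conj (sectPart b x φ s) := fun a => rfl
      rw [hc χ, Finset.sum_congr rfl fun ψ _ => by rw [hc ψ, mul_left_comm, Finset.mul_sum],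
        ← Finset.mul_sum, Finset.sum_comm, mul_left_comm, Finset.mul_sum (s := regSet 2 H)
          (f := fun s => sectPart b x χ s * conj (sectPart b x φ s))]
      congr 1
      refine Finset.sum_congr rfl fun s hs => ?_
      have h1 := sum_contrib_mul_sectPart hM hH hu hind χ hind.1 (mem_regSet.1 hs)
      rw [show blockPart b (sectPart b x χ) s = sectPart b x χ s from
        congrFun (blockPart_blockPart b _) s] at h1
      rw [← mul_assoc, ← h1, Finset.sum_mul]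
      exact Finset.sum_congr rfl fun ψ _ => (mul_assoc _ _ _).symm
    simp only [hm, hdb] at h
    rw [← Int.cast_inj (α := ℂ)]
    push_cast at h ⊢
    rw [hT, h]
    norm_num
  obtain ⟨χ₀, hχ₀⟩ := nonempty_of_isPBlock hB
  refine ⟨m χ₀, fun χ hχ => hone _ ((hTm _).2 hχ₀) _ ((hTm _).2 hχ), fun χ hχ ψ hψ => ?_⟩
  have hχT := (hTm χ).2 hχ
  have hψT := (hTm ψ).2 hψ
  have key := (Finset.sum_eq_zero_iff_of_nonneg
    (f := fun φ => (m χ φ * m φ ψ - m χ ψ) ^ 2) fun φ _ => sq_nonneg _).1 (by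
    have e : ∀ φ ∈ T, (m χ φ * m φ ψ - m χ ψ) ^ 2 = 2 - 2 * (m χ φ * m φ ψ) * m χ ψ := fun φ hφ => by
      rcases hone χ hχT φ hφ with a | a <;> rcases hone φ hφ ψ hψT with c | c <;>
        rcases hone χ hχT ψ hψT with d | d <;> rw [a, c, d] <;> norm_num
    rw [Finset.sum_congr rfl e, Finset.sum_sub_distrib, ← Finset.sum_mul, ← Finset.mul_sum,
      hproj, Finset.sum_const, hT4]
    rcases hone χ hχT ψ hψT with d | d <;> rw [d] <;> norm_num) χ₀ ((hTm _).2 hχ₀)
  rw [hm, ← Int.cast_mul, Int.cast_inj, hsymm χ₀ χ]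
  exact (sub_eq_zero.1 (pow_eq_zero_iff (n := 2) two_ne_zero |>.1 key)).symm

/-- The column of the subsection: its signs, and the function it spans. -/
theorem exists_column (hM : IsPModular 2 M) (hx : orderOf x = 2) (hB : IsPBlock M B)
    (hdB : blockDefect 2 B = 2) (hk : Nat.card B = 4)
    (hH : H = Subgroup.centralizer ({x} : Set G)) (hind : IsInducedBlock M H b B)
    (hdb : blockDefect 2 b = 2) (hl : blockRank 2 b = 1) :
    ∃ (v : IrrCharacter G → ℤ) (σ : H → ℂ), (∀ χ ∈ B, v χ = 1 ∨ v χ = -1) ∧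
      (∀ χ ∈ B, ∀ s, IsPRegular 2 s → sectPart b x χ s = (v χ : ℂ) * σ s) ∧
      (∃ s, IsPRegular 2 s ∧ σ s ≠ 0) ∧
      (∀ s : H, IsPRegular 2 s →
        ∑ ψ ∈ B.toFinite.toFinset, (v ψ : ℂ) * (ψ : G → ℂ) (x * (s : G)) = 4 * σ s) ∧
      (∀ g w : G, IsPPart 2 g w → ¬ IsConj w x →
        ∑ ψ ∈ B.toFinite.toFinset, (v ψ : ℂ) * (ψ : G → ℂ) g = 0) ∧
      (∀ {b' : Set (IrrCharacter H)}, IsPBlock M b' → b' ≠ b → ∀ s, IsPRegular 2 s →
        ∑ ψ ∈ B.toFinite.toFinset, (v ψ : ℂ) * sectPart b' x ψ s = 0) ∧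
      (∀ s, IsPRegular 2 s → MemLocalRing M (σ s)) ∧
      (∀ s, IsPRegular 2 s →
        MemLocalRing M (4 * σ s / (Nat.card (Subgroup.centralizer ({s} : Set H)) : ℂ))) := by
  classical
  have := isMaximal_of_isPModular hM
  have hu : ∃ e : ℕ, orderOf x = 2 ^ e := ⟨1, by rw [hx, pow_one]⟩
  obtain ⟨v, hv, hvm⟩ := exists_signs hM hx hB hdB hk hH hind hdb hl
  obtain ⟨χ₀, hχ₀⟩ := nonempty_of_isPBlock hB
  have hv2 : ∀ χ ∈ B, (v χ : ℂ) * (v χ : ℂ) = 1 := fun χ hχ => by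
    rcases hv χ hχ with h | h <;> rw [h] <;> norm_num
  have hsum : ∀ (χ : IrrCharacter G), χ ∈ B → ∀ (f : IrrCharacter G → ℂ),
      ∑ ψ ∈ B.toFinite.toFinset, contrib 2 b x χ ψ * f ψ =
        (v χ : ℂ) * ∑ ψ ∈ B.toFinite.toFinset, (v ψ : ℂ) * f ψ := by
    intro χ hχ f
    rw [Finset.mul_sum]
    exact Finset.sum_congr rfl fun ψ hψ => by
      rw [hvm χ hχ ψ ((Set.Finite.mem_toFinset _).1 hψ)]; ring
  have hS : ∀ χ ∈ B, ∀ s : H, IsPRegular 2 s →
      (v χ : ℂ) * ∑ ψ ∈ B.toFinite.toFinset, (v ψ : ℂ) * (ψ : G → ℂ) (x * (s : G)) =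
        4 * sectPart b x χ s := by
    intro χ hχ s hs
    rw [← hsum χ hχ fun ψ => (ψ : G → ℂ) (x * (s : G)),
      sum_contrib_mul_section hM hH hu hind χ hs, hdb]
    norm_num
  refine ⟨v, fun s => (v χ₀ : ℂ) * sectPart b x χ₀ s, hv, ?_, ?_, ?_, ?_, ?_, ?_, ?_⟩
  · intro χ hχ s hs
    have h1 := hS χ hχ s hs
    have h2 := hS χ₀ hχ₀ s hs
    refine mul_left_cancel₀ (show (4 : ℂ) ≠ 0 by norm_num) ?_
    calc 4 * sectPart b x χ s = (v χ : ℂ) * ((v χ₀ : ℂ) * (v χ₀ : ℂ)) *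
          ∑ ψ ∈ B.toFinite.toFinset, (v ψ : ℂ) * (ψ : G → ℂ) (x * (s : G)) := by
          rw [hv2 χ₀ hχ₀, mul_one, h1]
      _ = 4 * ((v χ : ℂ) * ((v χ₀ : ℂ) * sectPart b x χ₀ s)) := by
          linear_combination ((v χ : ℂ) * (v χ₀ : ℂ)) * h2
  · by_contra h
    push Not at h
    have h1 := hvm χ₀ hχ₀ χ₀ hχ₀
    rw [hv2 χ₀ hχ₀, contrib, Finset.sum_eq_zero fun s hs => ?_, mul_zero] at h1
    · exact one_ne_zero h1.symm
    · have := h s (mem_regSet.1 hs)
      rw [mul_eq_zero] at this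
      rcases this with e | e
      · rcases hv χ₀ hχ₀ with e' | e' <;> rw [e'] at e <;> norm_num at e
      · rw [e, zero_mul]
  · intro s hs
    calc _ = (v χ₀ : ℂ) * (v χ₀ : ℂ) *
          ∑ ψ ∈ B.toFinite.toFinset, (v ψ : ℂ) * (ψ : G → ℂ) (x * (s : G)) := by
          rw [hv2 χ₀ hχ₀, one_mul]
      _ = _ := by rw [mul_assoc, hS χ₀ hχ₀ s hs]; ring
  · intro g w hw hwx
    have h := sum_contrib_mul_other hM hH hu hind χ₀ hw hwx
    rw [hsum χ₀ hχ₀, mul_eq_zero] at h
    refine h.resolve_left fun e => ?_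
    rcases hv χ₀ hχ₀ with e' | e' <;> rw [e'] at e <;> norm_num at e
  · intro b' hb' hne s hs
    have h := sum_contrib_mul_sectPart hM hH hu hind χ₀ hb' hs
    rw [hsum χ₀ hχ₀,
      show blockPart b' (sectPart b x χ₀) = 0 from blockPart_blockPart_of_ne hind.1 hb' hne.symm _,
      Pi.zero_apply, mul_zero, mul_eq_zero] at h
    refine h.resolve_left fun e => ?_
    rcases hv χ₀ hχ₀ with e' | e' <;> rw [e'] at e <;> norm_num at e
  · intro s hs
    show MemLocalRing M ((v χ₀ : ℂ) * sectPart b x χ₀ s)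
    rw [sectPart_eq_sum hM hH hind.1 χ₀ hs, Finset.mul_sum]
    refine (localRing M).sum_mem fun t _ => (localRing M).mul_mem ?_ ((localRing M).mul_mem
      (memLocalRing_blockCoeff hind.1 _) (memLocalRing_apply (Chars.isCharacter_coe χ₀) _))
    simpa using memLocalRing_coe (M := M) ((v χ₀ : ℤ) : AlgInt)
  · intro s hs
    set φ : H → ℂ := fun c => (χ₀ : G → ℂ) (x * (c : G)) with hφd
    have hφ : IsClassFunction H φ := isClassFunction_translate hH χ₀
    have h := memLocalRing_div_centralizer hM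
      (f := ((v χ₀ : ℂ) * 4) • pRegularPart 2 (sectPart b x χ₀))
      (fun a c => by simp only [Pi.smul_apply]
                     rw [isClassFunction_pRegularPart (p := 2) (φ := sectPart b x χ₀)
                       (isClassFunction_blockPart b _) a c])
      (fun a ha => by simp [pRegularPart, ha]) ?_ s
    · simp only [Pi.smul_apply, smul_eq_mul, pRegularPart, if_pos hs] at h
      rwa [mul_left_comm, ← mul_assoc]
    intro θ
    rw [Chars.classInner_smul_left, classInner_pRegularPart_eq _ (Chars.isCharacter_coe θ)]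
    by_cases hθ : θ ∈ b
    · rw [show regPair 2 (sectPart b x χ₀) (θ : H → ℂ) = regPair 2 φ (θ : H → ℂ) from
        regPair_blockPart hM hind.1 hφ hθ]
      have h1 := (localRing M).mul_mem (scale_local (p := 2) hM hθ)
        (memLocalRing_regPair hM hφ (fun c _ => memLocalRing_apply (Chars.isCharacter_coe χ₀) _) θ)
      rw [hdb, mul_assoc, mul_div_cancel₀ _ (Chars.map_one_ne_zero θ)] at h1
      have h2 := (localRing M).mul_mem
        (memLocalRing_coe (M := M) ((v χ₀ : ℤ) : AlgInt)) h1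
      refine (Eq.subst (motive := fun z => MemLocalRing M z) ?_ h2)
      push_cast
      ring
    · have e : sectPart b x χ₀ = fun c => ∑ ξ ∈ b.toFinite.toFinset,
          classInner φ (ξ : H → ℂ) * (ξ : H → ℂ) c := by
        funext c
        rw [sectPart, blockPart_apply_eq, Finset.sum_apply]
        rfl
      rw [e, regPair_sum_left, Finset.sum_eq_zero fun ξ hξ => ?_]
      · rw [mul_zero, mul_zero]; exact (localRing M).zero_mem
      · rw [regPair_symm, regPair_eq_zero_of_ne_block hM hind.1 ((Set.Finite.mem_toFinset _).1 hξ) hθ,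
          mul_zero]

end CfsgLib.Blocks.KleinFour
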